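import Cfsg.Agent.H978.NB.Inv
import Cfsg.Agent.H978.NB.CoTwoData
import Cfsg.Agent.H143.LeechNine
import Cfsg.Agent.NotCT.Orders

/-!
# S5003: `Co₂`, `p = 3` (helper978)
-/

set_option autoImplicit false
set_option maxRecDepth 100000

namespace Cfsg.Agent.H978.NB.CoTwo

open Cfsg Subgroup Cfsg.Agent.SporadicA Cfsg.Agent.SporadicStructure.Co0Matrix Cfsg.Agent.CoOneType.CoEval
open Cfsg.Agent.LThreeCo1.Ev Cfsg.Agent.H573.Spor.Co0 Cfsg.Agent.H7.NBp Cfsg.Agent.H718.NBIH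

/-! ### `|C(z)|` -/

theorem leechU_ne : Spor.leechU ≠ 0 := by
  intro h
  have h1 := congrArg (fun v : leechLattice => (v : GolayPt → ℤ) none) h
  have h2 : Spor.vecU none = 0 := h1
  simp [Spor.vecU] at h2

theorem not_nine {z : Spor.Co2} (hz : orderOf z = 5) : ¬ 9 ∣ Nat.card ↥(centralizer ({z} : Set Spor.Co2)) := by
  have hfin : Finite Spor.Co2 := Nat.finite_of_card_ne_zero (by rw [Cfsg.Agent.NotCT.Orders.co2 ⟨MulEquiv.refl _⟩]; norm_num)
  refine Cfsg.Agent.H143.LeechNine.not_nine (v := Spor.leechU)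
    (φ := (Subgroup.inclusion (inf_le_left : Spor.Co2 ≤ Co0)).comp (centralizer ({z} : Set Spor.Co2)).subtype)
    (x := ⟨z, mem_centralizer_singleton_iff.2 rfl⟩) (r := 5) ?_ leechU_ne (fun h => h.1.2.2) ?_ ?_ ?_
  · exact (Subgroup.inclusion_injective (inf_le_left : Spor.Co2 ≤ Co0)).comp (Subgroup.subtype_injective _)
  · exact Or.inl rfl
  · rw [Subgroup.orderOf_mk, hz]
  · intro g
    exact Subtype.ext (mem_centralizer_singleton_iff.1 g.2)

theorem ord {n : ℕ} [Fact n.Prime] {g : Co0} (h : g.1 ∈ Spor.Co2) (hn : g ^ n = 1) (h1 : g ≠ 1) :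
    orderOf (⟨g.1, h⟩ : Spor.Co2) = n := by
  rw [Subgroup.orderOf_mk, Subgroup.orderOf_coe]
  exact orderOf_eq_prime hn h1

theorem ext_co2 {a b : Spor.Co2} {g g' : Co0} (ha : a.1 = g.1) (hb : b.1 = g'.1) (h : g = g') : a = b :=
  Subtype.ext (by rw [ha, hb, h])

theorem nb_three [IsSimpleGroup Spor.Co2] [Finite Spor.Co2] [Fact (Nat.Prime 3)] (ih : IH 3 (Nat.card Spor.Co2))
    (hna : ¬ IsMulCommutative Spor.Co2) : NB 3 Spor.Co2 := by
  have f5 : Fact (Nat.Prime 5) := ⟨Nat.prime_five⟩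
  have hc : Nat.card Spor.Co2 = 42305421312000 := Cfsg.Agent.NotCT.Orders.co2 ⟨MulEquiv.refl _⟩
  have hne : ∀ {g : Co0} (h : g.1 ∈ Spor.Co2), g ≠ 1 → (⟨g.1, h⟩ : Spor.Co2) ≠ 1 := fun h h1 h2 =>
    h1 (Subtype.ext (congrArg (fun a : Spor.Co2 => a.1) h2))
  have hcm : ∀ {g g' : Co0} (h : g.1 ∈ Spor.Co2) (h' : g'.1 ∈ Spor.Co2), g * g' = g' * g →
      (⟨g.1, h⟩ : Spor.Co2) * ⟨g'.1, h'⟩ = ⟨g'.1, h'⟩ * ⟨g.1, h⟩ := fun h h' e =>
    ext_co2 (g := _ * _) (g' := _ * _) rfl rfl e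
  refine nb_of_inv (y := ⟨gY.1, memY⟩) (z := ⟨gZ.1, memZ⟩) (z' := ⟨gZ2.1, memZ2⟩) (t := ⟨gT.1, memT⟩)
    (t' := ⟨gT2.1, memT2⟩) (r := 5) (a := 5) (b := 6) (n := 2) hna ih (ord _ y3 y1) (by norm_num) (by norm_num)
    (ord _ z5 z1) (ord _ z5' z1') (hcm _ _ zy) (hcm _ _ zy') (ext_co2 (g := gT * gT) (g' := 1) rfl rfl t2) (hne _ t1)
    (ext_co2 (g := gT2 * gT2) (g' := 1) rfl rfl t2') (hne _ t1') (hcm _ _ ty) (hcm _ _ ty') (hcm _ _ tz) (hcm _ _ tz')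
    (by norm_num) (ext_co2 (g := (gT * gT2) ^ 2) (g' := 1) rfl rfl tt) ?_ (fun z hz => not_nine hz) (by rw [hc]; norm_num) ?_ (by norm_num)
  · intro h
    exact tt1 (Subtype.ext (congrArg (fun a : Spor.Co2 => a.1) h))
  · intro j h1 h2 h3
    have h4 : j < 6 := by omega
    clear h2
    interval_cases j
    · norm_num at h3
    · norm_num at h3
    · norm_num at h3
    · rfl
    · norm_num at h3

/-- the row for `p = 3` -/
theorem nb_co2_three [Fact (Nat.Prime 3)] (S : Type) [Group S] [Finite S] [IsSimpleGroup S] (h : Spor.IsoCo2 S)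
    (ih : IH 3 (Nat.card S)) : NB 3 S := by
  have hc := Cfsg.Agent.NotCT.Orders.co2 h
  obtain ⟨f⟩ := h
  have hs : IsSimpleGroup Spor.Co2 := f.symm.isSimpleGroup
  have hfin : Finite Spor.Co2 := Finite.of_equiv S f.toEquiv
  have hcc : Nat.card S = Nat.card Spor.Co2 := Nat.card_congr f.toEquiv
  refine NB.iso f.symm (nb_three (by rw [← hcc]; exact ih) ?_)
  intro hm
  let _ : CommGroup Spor.Co2 := { (inferInstance : Group Spor.Co2) with mul_comm := hm.is_comm.comm }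
  have h3 : (Nat.card Spor.Co2).Prime := IsSimpleGroup.prime_card
  rw [← hcc, hc] at h3
  norm_num at h3

end Cfsg.Agent.H978.NB.CoTwo
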