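import Cfsg.Agent.H978.NB.Char
import Cfsg.Agent.H978.NB.ThreeTr
import Cfsg.Agent.LThreeFi23.CentUuComp

/-!
# S5003: the row `Fi₂₃` (helper978)
-/

set_option autoImplicit false

namespace Cfsg.Agent.H978.NB

open Cfsg Subgroup Cfsg.Agent.H7.NBp Cfsg.Agent.H718.NBIH Cfsg.Agent.LThreeFi23

theorem nb_fi23 {p : ℕ} [hp : Fact p.Prime] (h2 : p ≠ 2) (S : Type) [Group S] [Finite S] [IsSimpleGroup S]
    (h : Spor.IsoFi23 S) (ih : IH p (Nat.card S)) : NB p S := by
  obtain ⟨e⟩ := h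
  have hf : Finite Spor.Fi23 := Finite.of_equiv S e.toEquiv
  have hcard : Nat.card S = 4089470473293004800 := by rw [Nat.card_congr e.toEquiv]; exact card_G
  refine NB.iso e.symm ?_
  by_cases h3 : p = 3
  · subst h3
    refine NB.of_centralizer_singleton uu ⟨1, by rw [pow_one, ← order_uu, pow_orderOf_eq_one]⟩ ?_
    have hs := simple_CC
    have h1 : NB 3 ↥CC := ih.use nc_CC (by rw [card_CC, hcard]; norm_num)
    exact NB.of_normal CU (NB.iso (subgroupOfEquivOfLe CC_le).symm h1)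
  · refine nb_of_three h2 h3 (T := {t | ∃ q < 31671, t = T q}) ?_ ?_ (d := T 0) ⟨0, by norm_num, rfl⟩ ?_ ?_
    · rintro _ ⟨q, hq, rfl⟩ g
      exact ⟨_, act_lt g hq, (T_act g hq).symm⟩
    · rintro _ ⟨q, hq, rfl⟩
      exact T_sq hq
    · intro h1
      obtain ⟨g, hg⟩ := exists_rep (p := 1) (by norm_num)
      have h4 := T_act g (p := 0) (by norm_num)
      rw [hg, h1, mul_one, mul_inv_cancel, ← h1] at h4
      exact absurd (T_inj (by norm_num) (by norm_num) h4) (by norm_num)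
    · rintro _ ⟨q, hq, rfl⟩ _ ⟨q', hq', rfl⟩
      by_cases h4 : Com q q'
      · exact Or.inl ((com_iff hq').1 h4)
      · exact Or.inr (braid hq hq' h4)

end Cfsg.Agent.H978.NB
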