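import Cfsg.Agent.H978.NB.Syl

/-!
# S5003, `p = 3`: two commuting "reflections" in `C(y)` (helper978)

`nb_of_inv` : `y` of order 3; `z`, `z'` of prime order `r` and involutions `t`, `t'` in `C(y)`; `t` commutes with `z`,
`t'` with `z'`; the numbers force `|O_3(C(y))| = 3 ^ a` and `C_P(z) = ⟨y⟩`. Then `t` and `t'` invert `P / ⟨y⟩`, so
`t t'` is a 3-element.
-/

set_option autoImplicit false
set_option linter.unusedSectionVars false

namespace Cfsg.Agent.H978.NB

open Cfsg Subgroup Cfsg.Agent.H7.NBp Cfsg.Agent.H718.NBIH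

section

variable {S : Type*} [Group S] [Finite S] {P : Subgroup S} {y z : S} {r a : ℕ}

namespace Thr

variable (D : Thr P y z r a)
include D

/-- `t` inverts `P / ⟨y⟩` -/
theorem inverts {t : S} (ht2 : t * t = 1) (ht : t ∉ P) (hself : ∀ g, (∀ x ∈ P, g * x = x * g) → g ∈ P)
    (hty : t * y = y * t) (htz : t * z = z * t) (hn : ∀ x ∈ P, t * x * t⁻¹ ∈ P) :
    ∀ x ∈ P, t * x * t⁻¹ * x ∈ zpowers y := by
  have htinv : t⁻¹ = t := inv_eq_of_mul_eq_one_left ht2
  -- the fixed points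
  have hfix : ∀ x ∈ P, t * x = x * t → x ∈ zpowers y := by
    have key : P ⊓ centralizer ({t} : Set S) = P ∨ P ⊓ centralizer ({t} : Set S) ≤ zpowers y := by
      refine D.dich inf_le_left ⟨D.mem, mem_centralizer_singleton_iff.2 hty.symm⟩ ?_
      rintro x ⟨h1, h2⟩
      refine ⟨D.nz x h1, mem_centralizer_singleton_iff.2 ?_⟩
      have h3 := mem_centralizer_singleton_iff.1 h2
      have h4 : z⁻¹ * t = t * z⁻¹ := by
        rw [inv_mul_eq_iff_eq_mul, ← mul_assoc, ← htz, mul_inv_cancel_right]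
      calc z * x * z⁻¹ * t = z * x * (z⁻¹ * t) := by group
        _ = z * (x * t) * z⁻¹ := by rw [h4]; group
        _ = (z * t) * x * z⁻¹ := by rw [h3]; group
        _ = t * (z * x * z⁻¹) := by rw [← htz]; group
    rcases key with h | h
    · exfalso
      apply ht
      apply hself
      intro x hx
      rw [← h] at hx
      exact (mem_centralizer_singleton_iff.1 hx.2).symm
    · intro x hx hxt
      exact h ⟨hx, mem_centralizer_singleton_iff.2 hxt.symm⟩
  -- the quotient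
  let Z : Subgroup P := (zpowers y).subgroupOf P
  have hZ : ∀ x : P, x ∈ Z ↔ (x : S) ∈ zpowers y := fun x => mem_subgroupOf
  have hZn : Z.Normal := by
    refine ⟨fun x hx g => ?_⟩
    rw [hZ] at hx ⊢
    show (g : S) * x * (g : S)⁻¹ ∈ zpowers y
    rw [(D.comm hx g.2).eq, mul_inv_cancel_right]
    exact hx
  let c : P →* P :=
    { toFun := fun x => ⟨t * x * t⁻¹, hn x x.2⟩
      map_one' := Subtype.ext (by show t * 1 * t⁻¹ = 1; group)
      map_mul' := fun x x' => Subtype.ext (by show t * ((x : S) * x') * t⁻¹ = t * x * t⁻¹ * (t * x' * t⁻¹); group) }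
  have hct : ∀ {g : S}, g ∈ zpowers y → t * g = g * t := by
    intro g hg
    obtain ⟨i, rfl⟩ := mem_zpowers_iff.1 hg
    exact ((show Commute t y from hty).zpow_right i).eq
  have hcZ : Z ≤ Z.comap c := by
    intro x hx
    rw [hZ] at hx
    rw [mem_comap, hZ]
    show t * x * t⁻¹ ∈ zpowers y
    rw [hct hx, mul_inv_cancel_right]
    exact hx
  let φ : (P ⧸ Z) →* (P ⧸ Z) := QuotientGroup.map Z Z c hcZ
  have hφ : ∀ x : P, φ (x : P ⧸ Z) = (c x : P ⧸ Z) := fun x => rfl
  have hff : MonoidHom.FixedPointFree φ := by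
    intro q hq
    obtain ⟨x, rfl⟩ := QuotientGroup.mk_surjective q
    rw [hφ] at hq
    have h1 := QuotientGroup.eq.1 hq.symm
    rw [hZ] at h1
    have h2 : (x : S)⁻¹ * (t * x * t⁻¹) ∈ zpowers y := h1
    obtain ⟨d, hd⟩ : ∃ d, d = (x : S)⁻¹ * (t * x * t⁻¹) := ⟨_, rfl⟩
    rw [← hd] at h2
    have h3 : t * x = x * d * t := by rw [hd]; group
    have h4 : (x : S) = x * d * d := by
      calc (x : S) = t * (t * x) * 1 := by rw [← mul_assoc, ht2, one_mul, mul_one]
        _ = t * (x * d * t) * 1 := by rw [h3]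
        _ = (t * x) * (d * t) := by group
        _ = (x * d * t) * (t * d) := by rw [h3, hct h2]
        _ = x * d * (t * t) * d := by group
        _ = x * d * d := by rw [ht2, mul_one]
    have h5 : d * d = 1 := by
      rw [mul_assoc] at h4
      exact (mul_eq_left.1 h4.symm)
    have h6 : d = 1 := by
      have h7 := D.pow_three h2
      rw [pow_succ, pow_two, h5, one_mul] at h7
      exact h7
    rw [QuotientGroup.eq_one_iff, hZ]
    apply hfix x x.2
    rw [h3, h6, mul_one]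
  have hinv : Function.Involutive φ := by
    intro q
    obtain ⟨x, rfl⟩ := QuotientGroup.mk_surjective q
    rw [hφ, hφ]
    congr 1
    apply Subtype.ext
    show t * (t * x * t⁻¹) * t⁻¹ = x
    calc t * (t * x * t⁻¹) * t⁻¹ = (t * t) * x * (t * t)⁻¹ := by group
      _ = x := by rw [ht2, one_mul, inv_one, mul_one]
  have h1 := hff.coe_eq_inv_of_involutive hinv
  intro x hx
  have h2 : φ ((⟨x, hx⟩ : P) : P ⧸ Z) = ((⟨x, hx⟩ : P) : P ⧸ Z)⁻¹ := congrFun h1 _
  rw [hφ] at h2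
  have h3 : ((c ⟨x, hx⟩ * ⟨x, hx⟩ : P) : P ⧸ Z) = 1 := by
    rw [QuotientGroup.mk_mul, h2, inv_mul_cancel]
  rw [QuotientGroup.eq_one_iff, hZ] at h3
  exact h3

end Thr

end

/-- a `3`-element whose order is prime to `3` -/
theorem eq_one_of_three {S : Type*} [Group S] {P : Subgroup S} (hP : IsPGroup 3 P) {w : S} (hw : w ∈ P) {n : ℕ}
    (hn : ¬ 3 ∣ n) (hwn : w ^ n = 1) : w = 1 := by
  obtain ⟨k, hk⟩ := hP ⟨w, hw⟩
  have h1 : w ^ 3 ^ k = 1 := congrArg Subtype.val hk
  have h2 := Nat.dvd_gcd (orderOf_dvd_of_pow_eq_one h1) (orderOf_dvd_of_pow_eq_one hwn)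
  rw [Nat.Coprime.pow_left k ((Nat.Prime.coprime_iff_not_dvd Nat.prime_three).2 hn), Nat.dvd_one] at h2
  exact orderOf_eq_one_iff.1 h2

theorem nb_of_inv [hp : Fact (Nat.Prime 3)] {S : Type*} [Group S] [Finite S] [IsSimpleGroup S] (hna : ¬ IsMulCommutative S)
    (ih : IH 3 (Nat.card S)) {y z z' t t' : S} {r a b n : ℕ} (hy : orderOf y = 3) (hr : r.Prime) (hr3 : r ≠ 3)
    (hz : orderOf z = r) (hz' : orderOf z' = r) (hzy : z * y = y * z) (hzy' : z' * y = y * z')
    (ht2 : t * t = 1) (ht1 : t ≠ 1) (ht2' : t' * t' = 1) (ht1' : t' ≠ 1) (hty : t * y = y * t) (hty' : t' * y = y * t')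
    (htz : t * z = z * t) (htz' : t' * z' = z' * t') (hn : ¬ 3 ∣ n) (hw : (t * t') ^ n = 1) (hw1 : t * t' ≠ 1)
    (h9 : ∀ z : S, orderOf z = r → ¬ 9 ∣ Nat.card ↥(centralizer ({z} : Set S)))
    (hb : ¬ 3 ^ (b + 1) ∣ Nat.card S) (hj : ∀ j, 1 ≤ j → j + 1 ≤ b → r ∣ 3 ^ j - 1 → j + 1 = a) (ha : 3 ≤ a) : NB 3 S := by
  by_contra hnb
  have hy1 : y ≠ 1 := by
    rintro rfl
    rw [orderOf_one] at hy
    norm_num at hy
  obtain ⟨P, hP⟩ := exists_loc hna ih hnb ⟨1, by rw [pow_one, ← hy, pow_orderOf_eq_one]⟩ hy1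
  have key : ∀ z : S, orderOf z = r → z * y = y * z → Thr P y z r a := by
    intro z hz hzy
    obtain ⟨m, j, h1, h2, h3, h4, h5⟩ := hP.step hy1 hr hr3 hz hzy
    have h6 : m = 1 := by
      by_contra h6
      apply h9 z hz
      have h7 : Nat.card (P ⊓ centralizer ({z} : Set S) : Subgroup S) ∣ Nat.card ↥(centralizer ({z} : Set S)) :=
        card_dvd_of_le inf_le_right
      rw [h4] at h7
      exact (pow_dvd_pow 3 (show 2 ≤ m by omega)).trans h7
    subst h6
    have h6 : j + 1 ≤ b := by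
      by_contra h7
      apply hb
      refine (pow_dvd_pow 3 (show b + 1 ≤ 1 + j by omega)).trans ?_
      rw [← h3]
      exact card_subgroup_dvd_card _
    have h7 := hj j h2 h6 h5
    exact ⟨by rw [h3, ← h7, add_comm], hy, hP.mem, fun x hx => mem_centralizer_singleton_iff.1 (hP.le hx), hP.norm z hzy,
      hr, hr3, hz, hzy, by rw [h4, pow_one], fun i hi hi2 hi3 => by
        have := hj i hi (by omega) hi3
        omega, ha⟩
  have D := key z hz hzy
  have D' := key z' hz' hzy'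
  have h2n : ¬ 3 ∣ 2 := by norm_num
  have htP : t ∉ P := fun h => ht1 (eq_one_of_three hP.pg h h2n (by rw [pow_two, ht2]))
  have htP' : t' ∉ P := fun h => ht1' (eq_one_of_three hP.pg h h2n (by rw [pow_two, ht2']))
  have i1 := D.inverts ht2 htP hP.self hty htz (hP.norm t hty)
  have i2 := D'.inverts ht2' htP' hP.self hty' htz' (hP.norm t' hty')
  apply hw1
  refine eq_one_of_three hP.pg (hP.self _ fun x hx => ?_) hn hw
  obtain ⟨c, hc, e⟩ : ∃ c ∈ zpowers y, t * t' * x * (t * t')⁻¹ = c * x := by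
    have h1 := i2 x hx
    have hx' := hP.norm t' hty' x hx
    have h2 := i1 _ hx'
    obtain ⟨c₁, e1⟩ : ∃ c, c = t * (t' * x * t'⁻¹) * t⁻¹ * (t' * x * t'⁻¹) := ⟨_, rfl⟩
    obtain ⟨c₂, e2⟩ : ∃ c, c = t' * x * t'⁻¹ * x := ⟨_, rfl⟩
    rw [← e1] at h2
    rw [← e2] at h1
    refine ⟨c₁ * c₂⁻¹, mul_mem h2 (inv_mem h1), ?_⟩
    have h3 : t' * x * t'⁻¹ = c₂ * x⁻¹ := by rw [e2]; group
    have h4 := (D.comm (inv_mem h1) hx).eq
    calc t * t' * x * (t * t')⁻¹ = c₁ * (t' * x * t'⁻¹)⁻¹ := by rw [e1]; group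
      _ = c₁ * (x * c₂⁻¹) := by rw [h3]; group
      _ = c₁ * c₂⁻¹ * x := by rw [h4]; group
  have hwy : Commute (t * t') c := by
    obtain ⟨i, rfl⟩ := mem_zpowers_iff.1 hc
    have h1 : Commute (t * t') y := (show Commute t y from hty).mul_left (show Commute t' y from hty')
    exact h1.zpow_right i
  have hpow : ∀ k : ℕ, (t * t') ^ k * x * ((t * t') ^ k)⁻¹ = c ^ k * x := by
    intro k
    induction k with
    | zero => simp
    | succ k ih =>
      have h1 : (t * t') ^ (k + 1) * x * ((t * t') ^ (k + 1))⁻¹ =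
          (t * t') * ((t * t') ^ k * x * ((t * t') ^ k)⁻¹) * (t * t')⁻¹ := by
        rw [pow_succ' (t * t') k]
        generalize t * t' = w
        group
      rw [h1, ih]
      have h2 := (hwy.pow_right k).eq
      calc t * t' * (c ^ k * x) * (t * t')⁻¹ = (t * t' * c ^ k) * x * (t * t')⁻¹ := by group
        _ = c ^ k * (t * t' * x * (t * t')⁻¹) := by rw [h2]; group
        _ = c ^ k * (c * x) := by rw [e]
        _ = c ^ (k + 1) * x := by rw [pow_succ, mul_assoc]
  have h1 := hpow n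
  rw [hw, one_mul, inv_one, mul_one] at h1
  have h2 : c ^ n = 1 := by
    have : 1 * x = c ^ n * x := by rw [one_mul]; exact h1
    exact (mul_right_cancel this).symm
  have h3 : c = 1 := eq_one_of_three (P := P) hP.pg (D.zle hc) hn h2
  rw [h3, one_mul, mul_inv_eq_iff_eq_mul] at e
  exact e

end Cfsg.Agent.H978.NB
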